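import Mathlib
import Cfsg.Agent.H944.Tab

/-!
# S5915, block K3: natural solutions of a system of linear equations
-/

set_option autoImplicit false

namespace Cfsg.Agent.H259.L64

open Cfsg.Agent.H944.Tab

theorem nbeq_false {a b : ℕ} (h : a ≠ b) : Nat.beq a b = false := by
  cases h' : Nat.beq a b with
  | false => rfl
  | true => exact absurd (Nat.eq_of_beq_eq_true h') h

/-- a bound for the first unknown -/
def bd (n : ℕ) (V C : List ℕ) (B : ℕ) : ℕ :=
  (List.range n).foldl (fun m j => bif Nat.beq (V.getD j 0) 0 then m else min m (C.getD j 0 / V.getD j 0)) B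

/-- the right hand side after the choice of the first unknown -/
def sb (n x : ℕ) (V C : List ℕ) : List ℕ := (List.range n).map fun j => C.getD j 0 - x * V.getD j 0

/-- the equations without unknowns are satisfied -/
def dead (n : ℕ) (Vs : List (List ℕ)) (C : List ℕ) : Bool :=
  (List.range n).all fun j => Nat.beq (C.getD j 0) 0 || Vs.any fun V => !Nat.beq (V.getD j 0) 0

/-- all solutions with entries `≤ B` satisfy `p` -/
def allSol (n B : ℕ) : List (List ℕ) → List ℕ → (List ℕ → Bool) → Bool
  | [], _, p => p []
  | V :: Vs, C, p => (List.range (bd n V C B + 1)).all fun c =>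
      bif dead n Vs (sb n c V C) then allSol n B Vs (sb n c V C) fun x => p (c :: x) else true

theorem le_bd_aux (V C : List ℕ) (c : ℕ) (L : List ℕ) (h : ∀ j ∈ L, c * V.getD j 0 ≤ C.getD j 0) :
    ∀ B, c ≤ B → c ≤ L.foldl (fun m j => bif Nat.beq (V.getD j 0) 0 then m else min m (C.getD j 0 / V.getD j 0)) B := by
  induction L with
  | nil => intro B hB; exact hB
  | cons j L ih =>
    intro B hB
    rw [List.foldl_cons]
    refine ih (fun i hi => h i (List.mem_cons_of_mem _ hi)) _ ?_
    by_cases h0 : V.getD j 0 = 0
    · rw [h0]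
      exact hB
    · have h1 : Nat.beq (V.getD j 0) 0 = false := nbeq_false h0
      rw [h1, cond_false, le_min_iff]
      refine ⟨hB, ?_⟩
      rw [Nat.le_div_iff_mul_le (Nat.pos_of_ne_zero h0)]
      exact h j (List.mem_cons_self)

theorem getD_sb (n x : ℕ) (V C : List ℕ) {j : ℕ} (hj : j < n) :
    (sb n x V C).getD j 0 = C.getD j 0 - x * V.getD j 0 := by
  unfold sb
  rw [List.getD_eq_getElem _ _ (by simpa using hj)]
  simp

theorem dotN_zero (j : ℕ) : ∀ (x : List ℕ) (Vs : List (List ℕ)), (∀ V ∈ Vs, V.getD j 0 = 0) →
    dotN x (Vs.map (·.getD j 0)) = 0 := by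
  intro x
  induction x with
  | nil => intro Vs _; exact dotN_nil_left _
  | cons c x ih =>
    intro Vs h
    cases Vs with
    | nil => rfl
    | cons V Vs =>
      rw [List.map_cons, dotN, h V (List.mem_cons_self), ih Vs fun W hW => h W (List.mem_cons_of_mem _ hW)]
      omega

theorem allSol_spec (n B : ℕ) : ∀ (Vs : List (List ℕ)) (C : List ℕ) (p : List ℕ → Bool), allSol n B Vs C p = true →
    ∀ x : List ℕ, x.length = Vs.length → (∀ c ∈ x, c ≤ B) →
      (∀ j < n, C.getD j 0 = dotN x (Vs.map (·.getD j 0))) → p x = true := by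
  intro Vs
  induction Vs with
  | nil =>
    intro C p h x hx _ _
    have : x = [] := List.length_eq_zero_iff.1 (by simpa using hx)
    subst this
    exact h
  | cons V Vs ih =>
    intro C p h x hx hB heq
    cases x with
    | nil => simp at hx
    | cons c x =>
      rw [allSol, List.all_eq_true] at h
      have h1 : ∀ j < n, C.getD j 0 = c * V.getD j 0 + dotN x (Vs.map (·.getD j 0)) := by
        intro j hj
        rw [heq j hj, List.map_cons, dotN]
      have h2 : c ≤ bd n V C B := by
        refine le_bd_aux V C c (List.range n) (fun j hj => ?_) B (hB c (List.mem_cons_self))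
        rw [h1 j (List.mem_range.1 hj)]
        exact Nat.le_add_right _ _
      have h3 := h c (List.mem_range.2 (by omega))
      have h4 : ∀ j < n, (sb n c V C).getD j 0 = dotN x (Vs.map (·.getD j 0)) := by
        intro j hj
        rw [getD_sb n c V C hj, h1 j hj]
        omega
      have h5 : dead n Vs (sb n c V C) = true := by
        unfold dead
        rw [List.all_eq_true]
        intro j hj
        rw [Bool.or_eq_true, List.any_eq_true]
        by_cases h0 : ∃ V ∈ Vs, V.getD j 0 ≠ 0
        · right
          obtain ⟨W, hW, hW0⟩ := h0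
          refine ⟨W, hW, ?_⟩
          have : Nat.beq (W.getD j 0) 0 = false := nbeq_false hW0
          rw [this]
          rfl
        · left
          push Not at h0
          rw [h4 j (List.mem_range.1 hj), dotN_zero j x Vs h0]
          rfl
      rw [h5, cond_true] at h3
      exact ih (sb n c V C) (fun x => p (c :: x)) h3 x (by simpa using hx) (fun d hd => hB d (List.mem_cons_of_mem _ hd)) h4

end Cfsg.Agent.H259.L64
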