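import Mathlib
import Cfsg.Agent.H942.E8Val
import Cfsg.Agent.H259.L64.Solve

/-!
# S5915, block K3: counting root values

`cn N c Y` : the number of roots with the value `c` modulo `N` on the vector `Y`.
-/

set_option autoImplicit false
set_option maxRecDepth 100000

namespace Cfsg.Agent.H259.L64

open Cfsg Cfsg.Lie
open Cfsg.Agent.ChevalleyStructure Cfsg.Agent.ChevalleyStructure.CoxeterGeomTypes
open Cfsg.Agent.H942.E8Tab Cfsg.Agent.H942.E8Alc Cfsg.Agent.H942.E8Val
open Cfsg.Agent.H944.RootVals Cfsg.Agent.H944.Tab Cfsg.Agent.H944.Kac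

/-- indicator -/
def ib (a b : ℕ) : ℕ := bif Nat.beq a b then 1 else 0

theorem ib_eq (a b : ℕ) : ib a b = if a = b then 1 else 0 := by
  unfold ib
  by_cases h : a = b
  · subst h
    simp
  · have : Nat.beq a b = false := nbeq_false h
    rw [this, if_neg h, cond_false]

/-- the number of roots with the value `c` modulo `N` -/
def cn (N c : ℕ) (Y : List ℕ) : ℕ := sumH (fun t => ib (t % N) c + ib ((N - t % N) % N) c) R8 Y

theorem cast_eq_iff {N : ℕ} [NeZero N] {c : ℕ} (hc : c < N) (t : ℕ) : ((c : ZMod N) = (t : ZMod N)) ↔ t % N = c := by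
  constructor
  · intro h
    have h1 := congrArg ZMod.val h
    rw [ZMod.val_natCast, ZMod.val_natCast, Nat.mod_eq_of_lt hc] at h1
    exact h1.symm
  · intro h
    rw [← h]
    exact ZMod.natCast_mod t N

theorem cast_neg_iff {N : ℕ} [NeZero N] {c : ℕ} (hc : c < N) (t : ℕ) :
    ((c : ZMod N) = -(t : ZMod N)) ↔ (N - t % N) % N = c := by
  have hN : 0 < N := Nat.pos_of_ne_zero (NeZero.ne N)
  have h1 : (-(t : ZMod N)) = (((N - t % N : ℕ)) : ZMod N) := by
    rw [Nat.cast_sub (Nat.mod_lt t hN).le, ZMod.natCast_self, ZMod.natCast_mod, zero_sub]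
  rw [h1, cast_eq_iff hc]

theorem count_list {N : ℕ} [NeZero N] {c : ℕ} (hc : c < N) (Y : List ℕ) (R : List (List ℕ)) :
    (R.map fun r => ((dotN r Y : ℕ) : ZMod N)).count (c : ZMod N) +
      (R.map fun r => -((dotN r Y : ℕ) : ZMod N)).count (c : ZMod N) =
      sumH (fun t => ib (t % N) c + ib ((N - t % N) % N) c) R Y := by
  induction R with
  | nil => simp [sumH]
  | cons r R ih =>
    rw [sumH, ← ih, List.map_cons, List.map_cons, List.count_cons, List.count_cons, ib_eq, ib_eq]
    have h1 : ((((dotN r Y : ℕ) : ZMod N) == (c : ZMod N)) = true) ↔ (dotN r Y % N = c) := by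
      rw [beq_iff_eq, eq_comm, cast_eq_iff hc]
    have h2 : (((-((dotN r Y : ℕ) : ZMod N)) == (c : ZMod N)) = true) ↔ ((N - dotN r Y % N) % N = c) := by
      rw [beq_iff_eq, eq_comm, cast_neg_iff hc]
    simp only [h1, h2]
    ring

/-- the multiplicity of a value on a list vector -/
theorem count_vecL {N : ℕ} [NeZero N] (Y : List ℕ) {c : ℕ} (hc : c < N) :
    (ms chevE8 8 (vecL N Y)).count (c : ZMod N) = cn N c Y := by
  rw [ms_tab tab8, Multiset.count_add, Multiset.coe_count, Multiset.coe_count, cn, ← count_list hc Y R8]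
  congr 2
  · exact List.map_congr_left fun r hr => dotF_vecL Y r hr
  · refine List.map_congr_left fun r hr => ?_
    rw [dotF_vecL Y r hr]

/-- every vector is a list vector -/
theorem exists_list {N : ℕ} [NeZero N] (v : Fin 8 → ZMod N) :
    ∃ Y : List ℕ, Y.length = 8 ∧ vecL N Y = v ∧ ∀ i : Fin 8, Y.getD i 0 = (v i).val := by
  refine ⟨List.ofFn fun i => (v i).val, by simp, ?_, ?_⟩
  · funext i
    unfold vecL
    rw [List.getD_eq_getElem _ _ (by rw [List.length_ofFn]; exact i.2), List.getElem_ofFn]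
    exact ZMod.natCast_zmod_val _
  · intro i
    rw [List.getD_eq_getElem _ _ (by rw [List.length_ofFn]; exact i.2), List.getElem_ofFn]

/-- multiplication of a vector by a scalar -/
theorem ms_smul {N : ℕ} (u : ZMod N) (v : Fin 8 → ZMod N) :
    ms chevE8 8 (fun i => u * v i) = (ms chevE8 8 v).map (fun a => u * a) := by
  rw [ms_eq, ms_eq, Multiset.map_map]
  refine Multiset.map_congr rfl fun s _ => ?_
  simp only [Function.comp_apply]
  unfold rv
  rw [Finset.mul_sum]
  refine Finset.sum_congr rfl fun i _ => ?_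
  ring

theorem count_smul {N : ℕ} (u : (ZMod N)ˣ) (v : Fin 8 → ZMod N) (a : ZMod N) :
    (ms chevE8 8 (fun i => (u : ZMod N) * v i)).count a = (ms chevE8 8 v).count ((u⁻¹ : (ZMod N)ˣ) * a) := by
  rw [ms_smul]
  have h1 : a = (u : ZMod N) * (((u⁻¹ : (ZMod N)ˣ) : ZMod N) * a) := by rw [Units.mul_inv_cancel_left]
  conv_lhs => rw [h1]
  exact Multiset.count_map_eq_count' _ _ (fun x y h => u.isUnit.mul_left_cancel h) _

end Cfsg.Agent.H259.L64
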