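import Cfsg.Agent.H939.L64.DefT
import Cfsg.Agent.H259.L64.Cnt

/-!
# S5915, block K3: the tables of the orders 65 and 9
-/

set_option autoImplicit false
set_option maxRecDepth 100000

namespace Cfsg.Agent.H259.L64

open Cfsg Cfsg.Lie
open Cfsg.Agent.ChevalleyStructure Cfsg.Agent.ChevalleyStructure.CoxeterGeomTypes
open Cfsg.Agent.H942.E8Tab Cfsg.Agent.H942.E8Alc Cfsg.Agent.H942.E8Val
open Cfsg.Agent.H944.RootVals Cfsg.Agent.H944.Tab Cfsg.Agent.H944.Kac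
open Cfsg.Agent.H939.L64

def YL1 : List ℕ := [1, 0, 0, 1, 1, 2, 4, 8]

def YL5 : List ℕ := [1, 5, 3, 1, 1, 2, 3, 3]

theorem vecL_YL1 : vecL 65 YL1 = Y1 := by decide

theorem vecL_YL5 : vecL 65 YL5 = Y5 := by decide

def T1 : List ℕ := [4, 7, 7, 4, 7, 3, 4, 3, 7, 3, 3, 2, 4, 2, 3, 3, 7, 4, 3, 2, 3, 2, 2, 2, 4, 3, 2, 2, 3, 3, 3, 4, 7, 7, 4,
  3, 3, 3, 2, 2, 3, 4, 2, 2, 2, 3, 2, 3, 4, 7, 3, 3, 2, 4, 2, 3, 3, 7, 3, 4, 3, 7, 4, 7, 7]

def T5 : List ℕ := [0, 3, 3, 4, 3, 5, 4, 3, 3, 3, 5, 4, 4, 3, 3, 5, 3, 4, 3, 4, 5, 4, 4, 4, 4, 5, 3, 4, 3, 3, 5, 4, 3, 3, 4,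
  5, 3, 3, 4, 3, 5, 4, 4, 4, 4, 5, 4, 3, 4, 3, 5, 3, 3, 4, 4, 5, 3, 3, 3, 4, 5, 3, 4, 3, 3]

theorem tabT1 : ∀ c < 65, cn 65 c YL1 = T1.getD c 0 := by decide +kernel

theorem tabT5 : ∀ c < 65, cn 65 c YL5 = T5.getD c 0 := by decide +kernel

/-- the numbers of the eigenvalues `0, 1, 3, 5, 7, 11, 13` for the elements of order 65 -/
def L65 : List (List ℕ) :=
  [[8, 3, 4, 5, 3, 4, 3], [8, 4, 3, 5, 4, 3, 3], [12, 2, 7, 3, 4, 3, 2], [12, 3, 2, 3, 7, 4, 2], [12, 4, 3, 3, 2, 7, 2],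
   [12, 7, 4, 3, 3, 2, 2]]

/-- the entries of a table at `0, w, 3w, ..` -/
def colT (T : List ℕ) (w : ℕ) : List ℕ :=
  (T.getD 0 0 + 8) :: [1, 3, 5, 7, 11, 13].map fun j => T.getD (w * j % 65) 0

theorem colT1 : ∀ w < 65, Nat.Coprime w 65 → colT T1 w ∈ L65 := by decide +kernel

theorem colT5 : ∀ w < 65, Nat.Coprime w 65 → colT T5 w ∈ L65 := by decide +kernel

/-- the numbers of the eigenvalues of a vector modulo 65 -/
def col65 (v : Fin 8 → ZMod 65) : List ℕ := [0, 1, 3, 5, 7, 11, 13].map fun j => cntE v ((j : ℕ) : ZMod 65)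

theorem count_of_list {T : List ℕ} {Y : List ℕ} {v₀ : Fin 8 → ZMod 65} (hv₀ : vecL 65 Y = v₀)
    (hT : ∀ c < 65, cn 65 c Y = T.getD c 0) (a : ZMod 65) : (ms chevE8 8 v₀).count a = T.getD a.val 0 := by
  rw [← hT a.val (ZMod.val_lt a), ← count_vecL Y (ZMod.val_lt a), hv₀, ZMod.natCast_zmod_val]

theorem col65_of {T : List ℕ} {Y : List ℕ} {v₀ v : Fin 8 → ZMod 65} (hv₀ : vecL 65 Y = v₀)
    (hT : ∀ c < 65, cn 65 c Y = T.getD c 0) (hL : ∀ w < 65, Nat.Coprime w 65 → colT T w ∈ L65) (u : (ZMod 65)ˣ)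
    (h : ms chevE8 8 v = ms chevE8 8 (fun i => (u : ZMod 65) * v₀ i)) : col65 v ∈ L65 := by
  have h1 : ∀ a : ZMod 65, (ms chevE8 8 v).count a = T.getD ((u⁻¹ : (ZMod 65)ˣ) * a : ZMod 65).val 0 := by
    intro a
    rw [h, count_smul, count_of_list hv₀ hT]
  have h2 := hL ((u⁻¹ : (ZMod 65)ˣ) : ZMod 65).val (ZMod.val_lt _) (ZMod.val_coe_unit_coprime _)
  have h3 : colT T ((u⁻¹ : (ZMod 65)ˣ) : ZMod 65).val = col65 v := by
    have h4 : ∀ j : ℕ, j < 65 → ((u⁻¹ : (ZMod 65)ˣ) * (j : ZMod 65) : ZMod 65).val =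
        ((u⁻¹ : (ZMod 65)ˣ) : ZMod 65).val * j % 65 := by
      intro j hj
      rw [ZMod.val_mul, ZMod.val_natCast, Nat.mod_eq_of_lt hj]
    unfold colT col65 cntE
    simp only [h1, List.map_cons, List.map_nil]
    rw [h4 1 (by norm_num), h4 3 (by norm_num), h4 5 (by norm_num), h4 7 (by norm_num), h4 11 (by norm_num),
      h4 13 (by norm_num)]
    have e0 : ((0 : ℕ) : ZMod 65) = 0 := by decide
    have e1 : ((1 : ℕ) : ZMod 65) ≠ 0 := by decide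
    have e3 : ((3 : ℕ) : ZMod 65) ≠ 0 := by decide
    have e5 : ((5 : ℕ) : ZMod 65) ≠ 0 := by decide
    have e7 : ((7 : ℕ) : ZMod 65) ≠ 0 := by decide
    have e11 : ((11 : ℕ) : ZMod 65) ≠ 0 := by decide
    have e13 : ((13 : ℕ) : ZMod 65) ≠ 0 := by decide
    rw [if_neg e1, if_neg e3, if_neg e5, if_neg e7, if_neg e11, if_neg e13, if_pos e0, e0, mul_zero, ZMod.val_zero]
    rfl
  rw [← h3]
  exact h2

/-- **order 65** -/
theorem col65_mem {v : Fin 8 → ZMod 65} {u : (ZMod 65)ˣ}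
    (h : ms chevE8 8 v = ms chevE8 8 (fun i => (u : ZMod 65) * Y1 i) ∨
      ms chevE8 8 v = ms chevE8 8 (fun i => (u : ZMod 65) * Y5 i)) : col65 v ∈ L65 := by
  rcases h with h | h
  · exact col65_of vecL_YL1 tabT1 colT1 u h
  · exact col65_of vecL_YL5 tabT5 colT5 u h

/-- the numbers of the eigenvalues `0, 1, 3` for the elements of order 9 -/
def L9 : List (List ℕ) :=
  [[28, 27, 29], [30, 27, 28], [34, 27, 26], [48, 27, 19], [80, 0, 84], [86, 0, 81], [92, 0, 78], [134, 0, 57], [248, 0, 0]]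

theorem check9 : allAlc th8 9 (fun Y => bif invB 9 2 R8 Y then
    decide ([cn 9 0 Y + 8, cn 9 1 Y, cn 9 3 Y] ∈ L9) else true) = true := by
  decide +kernel

/-- **order 9** -/
theorem col9_mem (Y : List ℕ)
    (h2 : ms chevE8 8 (vecL 9 Y) = (ms chevE8 8 (vecL 9 Y)).map (fun a => ((2 : ℕ) : ZMod 9) * a)) :
    [cn 9 0 Y + 8, cn 9 1 Y, cn 9 3 Y] ∈ L9 := by
  obtain ⟨Z, hZ1, hZ2, hZ3⟩ := exists_alc (N := 9) (by norm_num) (vecL 9 Y)
  have h3 : ∀ c < 9, cn 9 c Y = cn 9 c Z := by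
    intro c hc
    rw [← count_vecL Y hc, ← count_vecL Z hc, hZ3]
  have h4 := allAlc_spec th8 9 _ (by decide) check9 Z hZ1 hZ2
  have h5 : invB 9 2 R8 Z = true := by
    refine invB_of (by norm_num) tab8 len8 ?_
    have h6 := hZ3.symm ▸ h2
    exact h6
  rw [h5, cond_true, decide_eq_true_iff] at h4
  rw [h3 0 (by norm_num), h3 1 (by norm_num), h3 3 (by norm_num)]
  exact h4

end Cfsg.Agent.H259.L64
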