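import Cfsg.Agent.H939.L64.DefR
import Cfsg.Agent.H259.L64.Tab

/-!
# S5915, block K3: the arithmetic of the multiplicities
-/

set_option autoImplicit false
set_option maxRecDepth 100000

namespace Cfsg.Agent.H259.L64

open Cfsg Cfsg.Lie
open Cfsg.Agent.H944.Tab Cfsg.Agent.H939.L64

/-- the rotation classes of masks -/
def orbs : List (List ℕ) :=
  [[31, 62, 61, 59, 55, 47], [0], [23, 46, 29, 58, 53, 43], [13, 26, 52, 41, 19, 38], [15, 30, 60, 57, 51, 39], [63], [21, 42],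
   [27, 54, 45], [11, 22, 44, 25, 50, 37], [9, 18, 36], [7, 14, 28, 56, 49, 35], [5, 10, 20, 40, 17, 34],
   [3, 6, 12, 24, 48, 33], [1, 2, 4, 8, 16, 32]]

/-- the unknown multiplicities -/
def xs (m : ℕ → ℕ) : List ℕ :=
  [m 31, m 0, m 23, m 13, m 15, m 63, m 21, m 27, m 11, m 9, m 7, m 5, m 3, m 1]

/-- the class of a mask -/
def posL : List ℕ := [1, 13, 13, 12, 13, 11, 12, 10, 13, 9, 11, 8, 12, 3, 10, 4, 13, 11, 9, 3, 11, 6, 8, 2, 12, 8, 3, 7,
  10, 2, 4, 0, 13, 12, 11, 10, 9, 8, 3, 4, 11, 3, 6, 2, 8, 7, 2, 0, 12, 10, 8, 4, 3, 2, 7, 0, 10, 4, 2, 0, 4, 0, 0, 5]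

/-- the orbit sums of a function -/
def col (f : ℕ → ℕ) : List ℕ := orbs.map fun o => (o.map f).sum

set_option maxHeartbeats 4000000 in
theorem sum_eq (m f : ℕ → ℕ) (hm : ∀ b < 63, m (2 * b % 63) = m b) :
    ∑ b ∈ Finset.range 64, m b * f b = dotN (xs m) (col f) := by
  have e62 : m 62 = m 31 := hm 31 (by norm_num)
  have e61 : m 61 = m 31 := (hm 62 (by norm_num)).trans e62
  have e59 : m 59 = m 31 := (hm 61 (by norm_num)).trans e61
  have e55 : m 55 = m 31 := (hm 59 (by norm_num)).trans e59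
  have e47 : m 47 = m 31 := (hm 55 (by norm_num)).trans e55
  have e46 : m 46 = m 23 := hm 23 (by norm_num)
  have e29 : m 29 = m 23 := (hm 46 (by norm_num)).trans e46
  have e58 : m 58 = m 23 := (hm 29 (by norm_num)).trans e29
  have e53 : m 53 = m 23 := (hm 58 (by norm_num)).trans e58
  have e43 : m 43 = m 23 := (hm 53 (by norm_num)).trans e53
  have e26 : m 26 = m 13 := hm 13 (by norm_num)
  have e52 : m 52 = m 13 := (hm 26 (by norm_num)).trans e26
  have e41 : m 41 = m 13 := (hm 52 (by norm_num)).trans e52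
  have e19 : m 19 = m 13 := (hm 41 (by norm_num)).trans e41
  have e38 : m 38 = m 13 := (hm 19 (by norm_num)).trans e19
  have e30 : m 30 = m 15 := hm 15 (by norm_num)
  have e60 : m 60 = m 15 := (hm 30 (by norm_num)).trans e30
  have e57 : m 57 = m 15 := (hm 60 (by norm_num)).trans e60
  have e51 : m 51 = m 15 := (hm 57 (by norm_num)).trans e57
  have e39 : m 39 = m 15 := (hm 51 (by norm_num)).trans e51
  have e42 : m 42 = m 21 := hm 21 (by norm_num)
  have e54 : m 54 = m 27 := hm 27 (by norm_num)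
  have e45 : m 45 = m 27 := (hm 54 (by norm_num)).trans e54
  have e22 : m 22 = m 11 := hm 11 (by norm_num)
  have e44 : m 44 = m 11 := (hm 22 (by norm_num)).trans e22
  have e25 : m 25 = m 11 := (hm 44 (by norm_num)).trans e44
  have e50 : m 50 = m 11 := (hm 25 (by norm_num)).trans e25
  have e37 : m 37 = m 11 := (hm 50 (by norm_num)).trans e50
  have e18 : m 18 = m 9 := hm 9 (by norm_num)
  have e36 : m 36 = m 9 := (hm 18 (by norm_num)).trans e18
  have e14 : m 14 = m 7 := hm 7 (by norm_num)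
  have e28 : m 28 = m 7 := (hm 14 (by norm_num)).trans e14
  have e56 : m 56 = m 7 := (hm 28 (by norm_num)).trans e28
  have e49 : m 49 = m 7 := (hm 56 (by norm_num)).trans e56
  have e35 : m 35 = m 7 := (hm 49 (by norm_num)).trans e49
  have e10 : m 10 = m 5 := hm 5 (by norm_num)
  have e20 : m 20 = m 5 := (hm 10 (by norm_num)).trans e10
  have e40 : m 40 = m 5 := (hm 20 (by norm_num)).trans e20
  have e17 : m 17 = m 5 := (hm 40 (by norm_num)).trans e40
  have e34 : m 34 = m 5 := (hm 17 (by norm_num)).trans e17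
  have e6 : m 6 = m 3 := hm 3 (by norm_num)
  have e12 : m 12 = m 3 := (hm 6 (by norm_num)).trans e6
  have e24 : m 24 = m 3 := (hm 12 (by norm_num)).trans e12
  have e48 : m 48 = m 3 := (hm 24 (by norm_num)).trans e24
  have e33 : m 33 = m 3 := (hm 48 (by norm_num)).trans e48
  have e2 : m 2 = m 1 := hm 1 (by norm_num)
  have e4 : m 4 = m 1 := (hm 2 (by norm_num)).trans e2
  have e8 : m 8 = m 1 := (hm 4 (by norm_num)).trans e4
  have e16 : m 16 = m 1 := (hm 8 (by norm_num)).trans e8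
  have e32 : m 32 = m 1 := (hm 16 (by norm_num)).trans e16
  simp only [Finset.sum_range_succ, Finset.sum_range_zero, e62, e61, e59, e55, e47, e46, e29, e58, e53, e43, e26, e52, e41, e19, e38, e30, e60, e57, e51, e39, e42, e54, e45, e22, e44, e25, e50, e37, e18, e36, e14, e28, e56, e49, e35, e10, e20, e40, e17, e34, e6, e12, e24, e48, e33, e2, e4, e8, e16, e32, xs, col, orbs, List.map_cons, List.map_nil,
    List.sum_cons, List.sum_nil, dotN]
  ring

set_option maxHeartbeats 4000000 in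
theorem m_eq (m : ℕ → ℕ) (hm : ∀ b < 63, m (2 * b % 63) = m b) :
    ∀ b < 64, m b = (xs m).getD (posL.getD b 0) 0 := by
  have e62 : m 62 = m 31 := hm 31 (by norm_num)
  have e61 : m 61 = m 31 := (hm 62 (by norm_num)).trans e62
  have e59 : m 59 = m 31 := (hm 61 (by norm_num)).trans e61
  have e55 : m 55 = m 31 := (hm 59 (by norm_num)).trans e59
  have e47 : m 47 = m 31 := (hm 55 (by norm_num)).trans e55
  have e46 : m 46 = m 23 := hm 23 (by norm_num)
  have e29 : m 29 = m 23 := (hm 46 (by norm_num)).trans e46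
  have e58 : m 58 = m 23 := (hm 29 (by norm_num)).trans e29
  have e53 : m 53 = m 23 := (hm 58 (by norm_num)).trans e58
  have e43 : m 43 = m 23 := (hm 53 (by norm_num)).trans e53
  have e26 : m 26 = m 13 := hm 13 (by norm_num)
  have e52 : m 52 = m 13 := (hm 26 (by norm_num)).trans e26
  have e41 : m 41 = m 13 := (hm 52 (by norm_num)).trans e52
  have e19 : m 19 = m 13 := (hm 41 (by norm_num)).trans e41
  have e38 : m 38 = m 13 := (hm 19 (by norm_num)).trans e19
  have e30 : m 30 = m 15 := hm 15 (by norm_num)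
  have e60 : m 60 = m 15 := (hm 30 (by norm_num)).trans e30
  have e57 : m 57 = m 15 := (hm 60 (by norm_num)).trans e60
  have e51 : m 51 = m 15 := (hm 57 (by norm_num)).trans e57
  have e39 : m 39 = m 15 := (hm 51 (by norm_num)).trans e51
  have e42 : m 42 = m 21 := hm 21 (by norm_num)
  have e54 : m 54 = m 27 := hm 27 (by norm_num)
  have e45 : m 45 = m 27 := (hm 54 (by norm_num)).trans e54
  have e22 : m 22 = m 11 := hm 11 (by norm_num)
  have e44 : m 44 = m 11 := (hm 22 (by norm_num)).trans e22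
  have e25 : m 25 = m 11 := (hm 44 (by norm_num)).trans e44
  have e50 : m 50 = m 11 := (hm 25 (by norm_num)).trans e25
  have e37 : m 37 = m 11 := (hm 50 (by norm_num)).trans e50
  have e18 : m 18 = m 9 := hm 9 (by norm_num)
  have e36 : m 36 = m 9 := (hm 18 (by norm_num)).trans e18
  have e14 : m 14 = m 7 := hm 7 (by norm_num)
  have e28 : m 28 = m 7 := (hm 14 (by norm_num)).trans e14
  have e56 : m 56 = m 7 := (hm 28 (by norm_num)).trans e28
  have e49 : m 49 = m 7 := (hm 56 (by norm_num)).trans e56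
  have e35 : m 35 = m 7 := (hm 49 (by norm_num)).trans e49
  have e10 : m 10 = m 5 := hm 5 (by norm_num)
  have e20 : m 20 = m 5 := (hm 10 (by norm_num)).trans e10
  have e40 : m 40 = m 5 := (hm 20 (by norm_num)).trans e20
  have e17 : m 17 = m 5 := (hm 40 (by norm_num)).trans e40
  have e34 : m 34 = m 5 := (hm 17 (by norm_num)).trans e17
  have e6 : m 6 = m 3 := hm 3 (by norm_num)
  have e12 : m 12 = m 3 := (hm 6 (by norm_num)).trans e6
  have e24 : m 24 = m 3 := (hm 12 (by norm_num)).trans e12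
  have e48 : m 48 = m 3 := (hm 24 (by norm_num)).trans e24
  have e33 : m 33 = m 3 := (hm 48 (by norm_num)).trans e48
  have e2 : m 2 = m 1 := hm 1 (by norm_num)
  have e4 : m 4 = m 1 := (hm 2 (by norm_num)).trans e2
  have e8 : m 8 = m 1 := (hm 4 (by norm_num)).trans e4
  have e16 : m 16 = m 1 := (hm 8 (by norm_num)).trans e8
  have e32 : m 32 = m 1 := (hm 16 (by norm_num)).trans e16
  intro b hb
  interval_cases b <;> first | rfl | assumption

/-- the equations: eigenvalues `0, 1, 3, 5, 7, 11, 13` modulo 65 and `0, 1, 3` modulo 9 -/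
def fs (j b : ℕ) : ℕ :=
  if j < 7 then w65 b ([0, 1, 3, 5, 7, 11, 13].getD j 0)
  else ((List.range 7).map fun i => w63 b ([0, 1, 3].getD (j - 7) 0 + 9 * i)).sum

/-- the matrix of the system -/
def Ws : List (List ℕ) :=
  [[0, 1, 3, 3, 3, 5, 3, 24, 22, 18], [1, 0, 0, 0, 0, 0, 0, 1, 0, 0], [0, 0, 1, 1, 1, 4, 3, 12, 10, 12],
   [0, 0, 1, 1, 0, 1, 3, 0, 6, 6], [0, 1, 1, 2, 2, 1, 3, 12, 10, 12], [0, 1, 1, 1, 1, 1, 1, 8, 7, 7],
   [0, 0, 0, 0, 0, 1, 1, 0, 2, 2], [0, 0, 0, 1, 1, 2, 0, 12, 5, 3], [0, 0, 0, 1, 2, 1, 0, 12, 6, 0],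
   [0, 0, 0, 0, 1, 0, 0, 6, 1, 0], [0, 1, 1, 1, 1, 0, 0, 0, 6, 6], [0, 0, 1, 1, 0, 0, 0, 0, 2, 6],
   [0, 1, 1, 0, 0, 0, 0, 0, 2, 6], [0, 1, 0, 0, 0, 0, 0, 0, 2, 0]]

theorem colW : ∀ j < 10, Ws.map (·.getD j 0) = col (fs j) := by decide +kernel

/-- the solutions -/
def PL : List (List ℕ) :=
  [[0, 12, 0, 0, 0, 0, 2, 1, 0, 4, 2, 0, 0, 1], [0, 8, 0, 0, 0, 1, 2, 0, 1, 0, 0, 3, 0, 2],
   [0, 12, 0, 0, 0, 2, 0, 0, 0, 1, 0, 1, 1, 4], [0, 12, 0, 0, 0, 0, 2, 0, 0, 3, 0, 3, 1, 6]]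

theorem chkSol : ∀ a ∈ L65, ∀ b ∈ L9, allSol 10 248 Ws (a ++ b) (fun x => decide (x ∈ PL)) = true := by
  decide +kernel

theorem wpos : ∀ b < 64, 1 ≤ w65 b b := by decide +kernel

theorem pat_eq : ∀ b < 64, ∀ p, p = 1 ∨ p = 2 ∨ p = 3 ∨ p = 4 →
    (PL.getD (p - 1) []).getD (posL.getD b 0) 0 = pat p b := by
  have h : ∀ b < 64, ∀ p < 5, p ≠ 0 → (PL.getD (p - 1) []).getD (posL.getD b 0) 0 = pat p b := by decide +kernel
  intro b hb p hp
  exact h b hb p (by omega) (by omega)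

/-- **the arithmetic** -/
theorem arith {m : ℕ → ℕ} (hm : ∀ b < 63, m (2 * b % 63) = m b) {a b : List ℕ} (ha : a ∈ L65) (hb : b ∈ L9)
    (hle : ∀ b < 64, m b ≤ 248) (h : ∀ j < 10, (a ++ b).getD j 0 = ∑ b ∈ Finset.range 64, m b * fs j b) :
    ∃ p, (p = 1 ∨ p = 2 ∨ p = 3 ∨ p = 4) ∧ ∀ b < 64, m b = pat p b := by
  have h1 := allSol_spec 10 248 Ws (a ++ b) _ (chkSol a ha b hb) (xs m) rfl (by
    intro c hc
    simp only [xs, List.mem_cons, List.not_mem_nil, or_false] at hc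
    rcases hc with rfl | rfl | rfl | rfl | rfl | rfl | rfl | rfl | rfl | rfl | rfl | rfl | rfl | rfl <;>
      exact hle _ (by norm_num)) (by
    intro j hj
    rw [h j hj, colW j hj, sum_eq m (fs j) hm])
  rw [decide_eq_true_iff] at h1
  have h2 : ∃ p, (p = 1 ∨ p = 2 ∨ p = 3 ∨ p = 4) ∧ xs m = PL.getD (p - 1) [] := by
    simp only [PL, List.mem_cons, List.not_mem_nil, or_false] at h1
    rcases h1 with h1 | h1 | h1 | h1
    · exact ⟨1, by simp, h1⟩
    · exact ⟨2, by simp, h1⟩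
    · exact ⟨3, by simp, h1⟩
    · exact ⟨4, by simp, h1⟩
  obtain ⟨p, hp, hx⟩ := h2
  refine ⟨p, hp, fun b hb => ?_⟩
  rw [m_eq m hm b hb, hx, pat_eq b hb p hp]

end Cfsg.Agent.H259.L64
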