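import Cfsg.Agent.H259.L64.Sixty

/-!
# S5915, block K3: a multiset of root values modulo 63 which does not occur (2)
-/

set_option autoImplicit false
set_option maxRecDepth 100000

namespace Cfsg.Agent.H259.L64

open Cfsg Cfsg.Lie
open Cfsg.Agent.ChevalleyStructure Cfsg.Agent.ChevalleyStructure.CoxeterGeomTypes
open Cfsg.Agent.H942.E8Tab Cfsg.Agent.H942.E8Alc Cfsg.Agent.H942.E8Val
open Cfsg.Agent.H944.RootVals Cfsg.Agent.H944.Tab Cfsg.Agent.H944.Kac

theorem dotN_map (f g : ℕ → ℕ) (L : List ℕ) : dotN (L.map f) (L.map g) = (L.map fun i => f i * g i).sum := by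
  induction L with
  | nil => rfl
  | cons a L ih => rw [List.map_cons, List.map_cons, dotN, ih, List.map_cons, List.sum_cons]

theorem dotN_ps {r Y : List ℕ} (hr : r.length ≤ 8) : dotN r Y = (ps.map fun i => r.getD i 0 * Y.getD i 0).sum := by
  rw [dotN_eq 8 r Y hr]
  simp only [Fin.sum_univ_eight, ps, List.map_cons, List.map_nil, List.sum_cons, List.sum_nil]
  simp only [Fin.val_zero, Fin.val_one, Fin.val_two]
  show _ = _
  have h3 : ((3 : Fin 8) : ℕ) = 3 := rfl
  have h4 : ((4 : Fin 8) : ℕ) = 4 := rfl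
  have h5 : ((5 : Fin 8) : ℕ) = 5 := rfl
  have h6 : ((6 : Fin 8) : ℕ) = 6 := rfl
  have h7 : ((7 : Fin 8) : ℕ) = 7 := rfl
  rw [h3, h4, h5, h6, h7]
  ring

/-- the value of a trimmed root -/
theorem dotN_tr {k : ℕ} (hk : k < 9) {r : List ℕ} (hr : r ∈ Rk k) (Y : List ℕ) :
    dotN (tr k r) ((ps.drop (8 - k)).map fun i => Y.getD i 0) = dotN r Y := by
  have hr8 : r ∈ R8 := (List.mem_filter.1 hr).1
  rw [dotN_ps (len8 r hr8), tr, dotN_map]
  conv_rhs => rw [← List.take_append_drop (8 - k) ps, List.map_append, List.sum_append]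
  have h1 : ((ps.take (8 - k)).map fun i => r.getD i 0 * Y.getD i 0).sum = 0 := by
    refine List.sum_eq_zero fun x hx => ?_
    obtain ⟨i, hi, rfl⟩ := List.mem_map.1 hx
    rw [zero_Rk k hk r hr i hi, zero_mul]
  rw [h1, zero_add]

/-- the values of one level -/
theorem vals_level {k : ℕ} (hk : k < 9) (Y : List ℕ) :
    vals ((Rk k).map (tr k)) ((ps.drop (8 - k)).map fun i => Y.getD i 0) = vals (Rk k) Y := by
  unfold vals
  rw [List.flatMap_map]
  refine List.flatMap_congr fun r hr => ?_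
  rw [dotN_tr hk hr]

theorem vals_append (A B : List (List ℕ)) (a : List ℕ) : vals (A ++ B) a = vals A a ++ vals B a := by
  unfold vals
  rw [List.flatMap_append]

theorem count_vals (j : ℕ) (Y : List ℕ) (R : List (List ℕ)) :
    (vals R Y).count j = sumH (fun t => ib (t % 63) j + ib ((63 - t % 63) % 63) j) R Y := by
  induction R with
  | nil => rfl
  | cons r R ih =>
    have hv : vals (r :: R) Y = (dotN r Y % 63) :: ((63 - dotN r Y % 63) % 63) :: vals R Y := rfl
    rw [hv, sumH, List.count_cons, List.count_cons, ih, ib_eq, ib_eq]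
    simp only [beq_iff_eq]
    ring

/-- no vector congruent to `(1, 1, 0, 0, 0, 0, 1, 0)` modulo 9 has the given root values modulo 63 -/
theorem no_list (Y : List ℕ) (hlt : ∀ i < 8, Y.getD i 0 < 63)
    (h9 : ∀ i < 8, Y.getD i 0 % 9 = [1, 1, 0, 0, 0, 0, 1, 0].getD i 0) (hc : ∀ j, cn 63 j Y ≤ dg cap63 j) : False := by
  let cs : List ℕ := [2, 3, 4, 5, 7, 6, 1, 0].map fun i => Y.getD i 0 / 9
  have hcs : ∀ c ∈ cs, c < 7 := by
    intro c hc
    obtain ⟨i, hi, rfl⟩ := List.mem_map.1 hc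
    have : i < 8 := by
      simp only [List.mem_cons, List.not_mem_nil, or_false] at hi
      omega
    have := hlt i this
    omega
  have hy : ∀ i < 8, ∀ b, [1, 1, 0, 0, 0, 0, 1, 0].getD i 0 = b → b + 9 * (Y.getD i 0 / 9) = Y.getD i 0 := by
    intro i hi b hb
    have := h9 i hi
    omega
  have hrs := rs_eq
  simp only [List.map_cons, List.map_nil, List.cons.injEq, and_true] at hrs
  obtain ⟨e1, e2, e3, e4, e5, e6, e7, e8⟩ := hrs
  have htot : tot lv cs [] = vals (Rk 1 ++ (Rk 2 ++ (Rk 3 ++ (Rk 4 ++ (Rk 5 ++ (Rk 6 ++ (Rk 7 ++ (Rk 8 ++ [])))))))) Y := by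
    rw [vals_append, vals_append, vals_append, vals_append, vals_append, vals_append, vals_append, vals_append,
      ← vals_level (k := 1) (by norm_num), ← vals_level (k := 2) (by norm_num), ← vals_level (k := 3) (by norm_num),
      ← vals_level (k := 4) (by norm_num), ← vals_level (k := 5) (by norm_num), ← vals_level (k := 6) (by norm_num),
      ← vals_level (k := 7) (by norm_num), ← vals_level (k := 8) (by norm_num), ← e1, ← e2, ← e3, ← e4, ← e5, ← e6,
      ← e7, ← e8]
    show vals rs1 _ ++ (vals rs2 _ ++ (vals rs3 _ ++ (vals rs4 _ ++ (vals rs5 _ ++ (vals rs6 _ ++ (vals rs7 _ ++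
      (vals rs8 _ ++ []))))))) = _
    rw [hy 2 (by norm_num) 0 rfl, hy 3 (by norm_num) 0 rfl, hy 4 (by norm_num) 0 rfl, hy 5 (by norm_num) 0 rfl,
      hy 7 (by norm_num) 0 rfl, hy 6 (by norm_num) 1 rfl, hy 1 (by norm_num) 1 rfl, hy 0 (by norm_num) 1 rfl]
    rfl
  have h1 : srch lv [] cap63 = true := by
    refine srch_spec lv cs [] cap63 rfl hcs fun j => ?_
    rw [htot]
    refine le_trans (le_of_eq ?_) (hc j)
    rw [cn, ← count_vals]
    refine List.Perm.count_eq ?_ j
    unfold vals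
    exact perm_Rk.flatMap_right _
  rw [srch_false] at h1
  exact Bool.noConfusion h1

/-- every vector can be moved so that it is in the alcove -/
theorem exists_alcP {N : ℕ} (hN : 0 < N) (P : (Fin 8 → ZMod N) → Prop) (hPs : ∀ w j, P w → P (srefl chevE8 8 j w))
    {v : Fin 8 → ZMod N} (hv : P v) : ∃ Y : List ℕ, Y.length = 8 ∧ dotN th8 Y ≤ N ∧ P (vecL N Y) := by
  obtain ⟨y, hy, hθ⟩ := exists_alcove e8T (N := N) hN _ _ 60 (by norm_num) theta8
    (by decide) _ pos8 P hPs (v₀ := v) hv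
  let Y : List ℕ := List.ofFn y
  have hY : ∀ i : Fin 8, Y.getD i 0 = y i := by
    intro i
    rw [List.getD_eq_getElem _ _ (by rw [List.length_ofFn]; exact i.2), List.getElem_ofFn]
  refine ⟨Y, by simp [Y], ?_, ?_⟩
  · rw [dotN_eq 8 th8 Y (by decide)]
    have h2 : ∑ i : Fin 8, th8.getD i 0 * Y.getD i 0 = ∑ i : Fin 8, th8.getD i 0 * y i :=
      Finset.sum_congr rfl fun i _ => by rw [hY]
    rw [h2]
    simp only [Fin.sum_univ_eight, Matrix.cons_val] at hθ ⊢
    simp only [th8, List.getD_cons_zero, List.getD_cons_succ, Fin.val_zero, Fin.val_one, Fin.val_two] at hθ ⊢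
    norm_num at hθ ⊢
    omega
  · have : vecL N Y = fun i => ((y i : ℕ) : ZMod N) := by
      funext i
      unfold vecL
      rw [hY]
    rw [this]
    exact hy

theorem check9' : allAlc th8 9 (fun Y => bif invB 9 2 R8 Y then
    (bif Nat.beq (cn 9 0 Y) 22 then decide (Y = [1, 1, 0, 0, 0, 0, 1, 0]) else true) else true) = true := by
  decide +kernel

/-- folding modulo 9 -/
theorem ib_fold : ∀ s < 63, ∀ a < 9, ((List.range 7).map fun i => ib s (a + 9 * i)).sum = ib (s % 9) a := by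
  decide +kernel

theorem cn_fold (Y : List ℕ) {a : ℕ} (ha : a < 9) : ((List.range 7).map fun i => cn 63 (a + 9 * i) Y).sum = cn 9 a Y := by
  unfold cn
  induction R8 with
  | nil => rfl
  | cons r R ih =>
    have h1 : (dotN r Y % 63) % 9 = dotN r Y % 9 := by omega
    have h2 : ((63 - dotN r Y % 63) % 63) % 9 = (9 - dotN r Y % 9) % 9 := by omega
    have e1 := ib_fold (dotN r Y % 63) (Nat.mod_lt _ (by norm_num)) a ha
    have e2 := ib_fold ((63 - dotN r Y % 63) % 63) (Nat.mod_lt _ (by norm_num)) a ha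
    rw [h1] at e1
    rw [h2] at e2
    simp only [sumH]
    rw [← e1, ← e2, ← ih, List.sum_map_add, List.sum_map_add]

end Cfsg.Agent.H259.L64
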