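import Cfsg.Agent.H259.L64.KThree
import Cfsg.Agent.H484.E8T.K1

/-!
# S5915, block K3: the patterns of composition factors (final form)
-/

set_option autoImplicit false
set_option maxRecDepth 100000

namespace Cfsg.Agent.H259.L64

open Cfsg Cfsg.Lie
open Cfsg.Agent.H942.E8Tab Cfsg.Agent.H944.RootVals Cfsg.Agent.H944.Kac Cfsg.Agent.H939.L64

theorem k1St : K1St := fun P hP {_} hv h2 h5 h13 => Cfsg.Agent.H484.E8T.K1 P hP hv h2 h5 h13

/-- K3: the patterns -/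
theorem K3 {m : ℕ → ℕ} {v : Fin 8 → ZMod 65} {v' : Fin 8 → ZMod 63}
    (h2 : (ms chevE8 8 v).map (fun a => 2 * a) = ms chevE8 8 v)
    (h2' : (ms chevE8 8 v').map (fun a => 2 * a) = ms chevE8 8 v')
    (hm : ∀ b < 63, m (2 * b % 63) = m b)
    (h65 : ∀ j : ℕ, j < 65 → cntE v (j : ZMod 65) = ∑ b ∈ Finset.range 64, m b * w65 b j)
    (h63 : ∀ j : ℕ, j < 63 → cntE v' (j : ZMod 63) = ∑ b ∈ Finset.range 64, m b * w63 b j) (h0 : m 0 ≠ 248) :
    ∃ p, (p = 1 ∨ p = 2 ∨ p = 3) ∧ ∀ b < 64, m b = pat p b :=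
  K3_of k1St h2 h2' hm h65 h63 h0

end Cfsg.Agent.H259.L64
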