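import Cfsg.Agent.H259.L64.Excl
import Cfsg.Agent.H259.L64.Arith

/-!
# S5915, block K3: the patterns of composition factors
-/

set_option autoImplicit false
set_option maxRecDepth 100000

namespace Cfsg.Agent.H259.L64

open Cfsg Cfsg.Lie
open Cfsg.Agent.ChevalleyStructure Cfsg.Agent.ChevalleyStructure.CoxeterGeomTypes
open Cfsg.Agent.H942.E8Tab Cfsg.Agent.H942.E8Alc Cfsg.Agent.H942.E8Val
open Cfsg.Agent.H944.RootVals Cfsg.Agent.H944.Tab Cfsg.Agent.H944.Kac
open Cfsg.Agent.H939.L64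

theorem cn_ge {N c : ℕ} (hN : 0 < N) (hc : N ≤ c) (Y : List ℕ) : cn N c Y = 0 := by
  unfold cn
  induction R8 with
  | nil => rfl
  | cons r R ih =>
    have h1 : dotN r Y % N ≠ c := by
      have := Nat.mod_lt (dotN r Y) hN
      omega
    have h2 : (N - dotN r Y % N) % N ≠ c := by
      have := Nat.mod_lt (N - dotN r Y % N) hN
      omega
    rw [sumH, ih, ib_eq, ib_eq, if_neg h1, if_neg h2]

/-- **the exclusion of the fourth pattern** -/
theorem no63 {v' : Fin 8 → ZMod 63} (h2' : (ms chevE8 8 v').map (fun a => 2 * a) = ms chevE8 8 v')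
    (hc : ∀ j : ℕ, j < 63 → (ms chevE8 8 v').count (j : ZMod 63) = dg cap63 j) : False := by
  let f : ZMod 63 →+* ZMod 9 := ZMod.castHom (by norm_num) (ZMod 9)
  let P : (Fin 8 → ZMod 9) → Prop := fun w => ∃ v : Fin 8 → ZMod 63, (fun i => f (v i)) = w ∧ ms chevE8 8 v = ms chevE8 8 v'
  have hP : ∀ w j, P w → P (srefl chevE8 8 j w) := by
    rintro w j ⟨v, rfl, hv⟩
    refine ⟨srefl chevE8 8 j v, (srefl_map f j v).symm, ?_⟩
    rw [ms_srefl e8T]
    exact hv
  obtain ⟨Z, hZ1, hZ2, v, hv1, hv2⟩ := exists_alcP (N := 9) (by norm_num) P hP (v := fun i => f (v' i)) ⟨v', rfl, rfl⟩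
  obtain ⟨Y, hY1, hY2, hY3⟩ := exists_list v
  have hZY : vecL 9 Z = vecL 9 Y := by
    rw [← hv1]
    funext i
    unfold vecL
    rw [hY3 i]
    show ZMod.castHom _ (ZMod 9) (v i) = _
    rw [ZMod.castHom_apply, ZMod.cast_eq_val]
  have hcY : ∀ j < 63, cn 63 j Y = dg cap63 j := by
    intro j hj
    rw [← count_vecL Y hj, hY2, hv2, hc j hj]
  have hq : ms chevE8 8 v = (ms chevE8 8 v).map (fun a => ((2 : ℕ) : ZMod 63) * a) := by
    rw [hv2]
    exact h2'.symm
  have hinv : invB 9 2 R8 Z = true := by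
    refine invB_of (by norm_num) tab8 len8 ?_
    have h1 := inv_map f hq
    rw [hv1] at h1
    exact h1
  have h0 : cn 9 0 Z = 22 := by
    rw [← count_vecL Z (by norm_num : 0 < 9), hZY, count_vecL Y (by norm_num : 0 < 9), ← cn_fold Y (by norm_num : 0 < 9)]
    have h1 : ((List.range 7).map fun i => cn 63 (0 + 9 * i) Y) = (List.range 7).map fun i => dg cap63 (0 + 9 * i) := by
      refine List.map_congr_left fun i hi => ?_
      have := List.mem_range.1 hi
      exact hcY _ (by omega)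
    rw [h1]
    decide +kernel
  have h4 := allAlc_spec th8 9 _ (by decide) check9' Z hZ1 hZ2
  rw [hinv, cond_true, h0] at h4
  have h5 : Z = [1, 1, 0, 0, 0, 0, 1, 0] := by simpa using h4
  refine no_list Y (fun i hi => ?_) (fun i hi => ?_) fun j => ?_
  · rw [hY3 ⟨i, hi⟩]
    exact ZMod.val_lt _
  · have h6 := congrFun hZY ⟨i, hi⟩
    unfold vecL at h6
    rw [h5] at h6
    have h7 := (ZMod.natCast_eq_natCast_iff' _ _ _).1 h6
    rw [← h7]
    have h8 : ∀ i < 8, ([1, 1, 0, 0, 0, 0, 1, 0] : List ℕ).getD i 0 % 9 = ([1, 1, 0, 0, 0, 0, 1, 0] : List ℕ).getD i 0 := by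
      decide
    exact h8 i hi
  · by_cases hj : j < 63
    · exact (hcY j hj).le
    · rw [cn_ge (by norm_num) (by omega)]
      exact Nat.zero_le _

theorem cntE_vecL {N : ℕ} [NeZero N] {v : Fin 8 → ZMod N} {Y : List ℕ} (hY : vecL N Y = v) {j : ℕ} (hj : j < N) :
    cntE v (j : ZMod N) = cn N j Y + if j = 0 then 8 else 0 := by
  unfold cntE
  rw [← hY, count_vecL Y hj]
  congr 1
  have h1 : ((j : ZMod N) = 0) ↔ j = 0 := by
    constructor
    · intro h
      have h2 := congrArg ZMod.val h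
      rw [ZMod.val_natCast, Nat.mod_eq_of_lt hj, ZMod.val_zero] at h2
      exact h2
    · rintro rfl
      exact Nat.cast_zero
  simp only [h1]

theorem ib_tot : ∀ s < 65, ((List.range 65).map fun c => ib s c).sum = 1 := by decide +kernel

theorem cn_tot_aux {L : List ℕ} (hL : ∀ s < 65, (L.map fun c => ib s c).sum = 1) (Y : List ℕ) (R : List (List ℕ)) :
    (L.map fun c => sumH (fun t => ib (t % 65) c + ib ((65 - t % 65) % 65) c) R Y).sum = 2 * R.length := by
  induction R with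
  | nil => simp [sumH]
  | cons r R ih =>
    have h1 : (L.map fun c => sumH (fun t => ib (t % 65) c + ib ((65 - t % 65) % 65) c) (r :: R) Y) =
        L.map fun c => (ib (dotN r Y % 65) c + ib ((65 - dotN r Y % 65) % 65) c) +
          sumH (fun t => ib (t % 65) c + ib ((65 - t % 65) % 65) c) R Y := rfl
    rw [h1, List.sum_map_add, List.sum_map_add, hL _ (Nat.mod_lt _ (by norm_num)), hL _ (Nat.mod_lt _ (by norm_num)),
      ih, List.length_cons]
    ring

theorem len120 : R8.length = 120 := by decide +kernel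

theorem cn_tot (Y : List ℕ) : ((List.range 65).map fun c => cn 65 c Y).sum = 240 := by
  have h1 := cn_tot_aux ib_tot Y R8
  rw [len120] at h1
  exact h1

theorem sum_range_list (n : ℕ) (f : ℕ → ℕ) : ∑ b ∈ Finset.range n, f b = ((List.range n).map f).sum := by
  induction n with
  | zero => rfl
  | succ n ih => rw [Finset.sum_range_succ, ih, List.range_succ, List.map_append, List.sum_append]; simp

theorem eqs_of {m g h : ℕ → ℕ} (h65 : ∀ j : ℕ, j < 65 → g j = ∑ b ∈ Finset.range 64, m b * w65 b j)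
    (h9 : ∀ a < 9, h a = ∑ b ∈ Finset.range 64, m b * ((List.range 7).map fun i => w63 b (a + 9 * i)).sum) :
    ∀ j < 10, (([0, 1, 3, 5, 7, 11, 13].map g) ++ [h 0, h 1, h 3]).getD j 0 = ∑ b ∈ Finset.range 64, m b * fs j b := by
  intro j hj
  interval_cases j
  · exact h65 0 (by norm_num)
  · exact h65 1 (by norm_num)
  · exact h65 3 (by norm_num)
  · exact h65 5 (by norm_num)
  · exact h65 7 (by norm_num)
  · exact h65 11 (by norm_num)
  · exact h65 13 (by norm_num)
  · exact h9 0 (by norm_num)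
  · exact h9 1 (by norm_num)
  · exact h9 3 (by norm_num)

theorem wtot : ∀ b < 64, b ≠ 0 → ((List.range 65).map fun j => w65 b j).sum ≠ 0 := by decide +kernel

theorem w0 : ((List.range 65).map fun j => w65 0 j).sum = 1 := by decide +kernel

theorem colv1 : col (fun b => w65 b 1) = [1, 0, 0, 0, 1, 1, 0, 0, 0, 0, 1, 0, 1, 1] := by decide +kernel
theorem colv3 : col (fun b => w65 b 3) = [3, 0, 1, 1, 1, 1, 0, 0, 0, 0, 1, 1, 1, 0] := by decide +kernel
theorem colv7 : col (fun b => w65 b 7) = [3, 0, 1, 0, 2, 1, 0, 1, 2, 1, 1, 0, 0, 0] := by decide +kernel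
theorem colv11 : col (fun b => w65 b 11) = [5, 0, 4, 1, 1, 1, 1, 2, 1, 0, 0, 0, 0, 0] := by decide +kernel

theorem patw : ∀ j < 63, ((List.range 64).map fun b => pat 4 b * w63 b j).sum = dg cap63 j + if j = 0 then 8 else 0 := by
  decide +kernel

/-- the elements whose order is not 65 -/
theorem degenerate {m : ℕ → ℕ} {v : Fin 8 → ZMod 65} (hm : ∀ b < 63, m (2 * b % 63) = m b)
    (h65 : ∀ j : ℕ, j < 65 → cntE v (j : ZMod 65) = ∑ b ∈ Finset.range 64, m b * w65 b j)
    (hv : ∀ j ∈ [1, 3, 7, 11], (ms chevE8 8 v).count ((j : ℕ) : ZMod 65) = 0) : m 0 = 248 := by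
  have h1 : ∀ j ∈ [1, 3, 7, 11], dotN (xs m) (col fun b => w65 b j) = 0 := by
    intro j hj
    have hj1 : j < 65 ∧ ((j : ℕ) : ZMod 65) ≠ 0 := by
      simp only [List.mem_cons, List.not_mem_nil, or_false] at hj
      rcases hj with rfl | rfl | rfl | rfl <;> exact ⟨by norm_num, by decide⟩
    have h2 := h65 j hj1.1
    rw [sum_eq m (fun b => w65 b j) hm] at h2
    rw [← h2, cntE, hv j hj, if_neg hj1.2]
  have a1 := h1 1 (by simp)
  have a3 := h1 3 (by simp)
  have a7 := h1 7 (by simp)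
  have a11 := h1 11 (by simp)
  rw [colv1] at a1
  rw [colv3] at a3
  rw [colv7] at a7
  rw [colv11] at a11
  simp [xs, dotN] at a1 a3 a7 a11
  have hz : xs m = [0, m 0, 0, 0, 0, 0, 0, 0, 0, 0, 0, 0, 0, 0] := by
    unfold xs
    simp only [a1, a3, a7, a11]
  have hz' : ∀ b < 64, b ≠ 0 → m b = 0 := by
    intro b hb hb0
    rw [m_eq m hm b hb, hz]
    have h3 : ∀ b < 64, b ≠ 0 → ([0, 14, 0, 0, 0, 0, 0, 0, 0, 0, 0, 0, 0, 0] : List ℕ).getD (posL.getD b 0) 0 = 0 ∧
        posL.getD b 0 ≠ 1 := by decide +kernel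
    obtain ⟨h4, h5⟩ := h3 b hb hb0
    generalize posL.getD b 0 = q at h4 h5
    rcases q with _ | _ | _ | _ | _ | _ | _ | _ | _ | _ | _ | _ | _ | _ | q
    · rfl
    · exact absurd rfl h5
    all_goals rfl
  obtain ⟨Y, -, hY2, -⟩ := exists_list v
  have h6 : ∀ j < 65, cn 65 j Y + (if j = 0 then 8 else 0) = m 0 * w65 0 j := by
    intro j hj
    rw [← cntE_vecL hY2 hj, h65 j hj, Finset.sum_eq_single 0]
    · intro b hb hb0
      rw [hz' b (Finset.mem_range.1 hb) hb0, zero_mul]
    · intro h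
      exact absurd (Finset.mem_range.2 (by norm_num)) h
  have h7 : ((List.range 65).map fun j => cn 65 j Y + (if j = 0 then 8 else 0)) = (List.range 65).map fun j => m 0 * w65 0 j :=
    List.map_congr_left fun j hj => h6 j (List.mem_range.1 hj)
  have h8 := congrArg List.sum h7
  rw [List.sum_map_add, cn_tot, List.sum_map_mul_left, w0, mul_one] at h8
  rw [← h8]
  decide

/-- **K3** (modulo K1) -/
theorem K3core {m : ℕ → ℕ} {v : Fin 8 → ZMod 65} {v' : Fin 8 → ZMod 63}
    (hv : (∀ i, 5 * v i = 0) ∨ (∀ i, 13 * v i = 0) ∨ ∃ u : (ZMod 65)ˣ,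
      ms chevE8 8 v = ms chevE8 8 (fun i => (u : ZMod 65) * Y1 i) ∨
      ms chevE8 8 v = ms chevE8 8 (fun i => (u : ZMod 65) * Y5 i))
    (h2' : (ms chevE8 8 v').map (fun a => 2 * a) = ms chevE8 8 v')
    (hm : ∀ b < 63, m (2 * b % 63) = m b)
    (h65 : ∀ j : ℕ, j < 65 → cntE v (j : ZMod 65) = ∑ b ∈ Finset.range 64, m b * w65 b j)
    (h63 : ∀ j : ℕ, j < 63 → cntE v' (j : ZMod 63) = ∑ b ∈ Finset.range 64, m b * w63 b j) (h0 : m 0 ≠ 248) :
    ∃ p, (p = 1 ∨ p = 2 ∨ p = 3) ∧ ∀ b < 64, m b = pat p b := by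
  -- the vector of order 65
  have hdeg : ∀ c : ZMod 65, c * 1 ≠ 0 → c * 3 ≠ 0 → c * 7 ≠ 0 → c * 11 ≠ 0 → ¬ ∀ i, c * v i = 0 := by
    intro c c1 c3 c7 c11 hcv
    apply h0
    refine degenerate hm h65 fun j hj => ?_
    rw [Multiset.count_eq_zero]
    intro hmem
    rw [ms_eq, Multiset.mem_map] at hmem
    obtain ⟨s, -, hs⟩ := hmem
    have h1 : c * rv chevE8 8 v s = 0 := by
      unfold rv
      rw [Finset.mul_sum]
      refine Finset.sum_eq_zero fun i _ => ?_
      rw [mul_left_comm, hcv i, mul_zero]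
    rw [hs] at h1
    simp only [List.mem_cons, List.not_mem_nil, or_false] at hj
    rcases hj with rfl | rfl | rfl | rfl
    · exact c1 (by simpa using h1)
    · exact c3 h1
    · exact c7 h1
    · exact c11 h1
  rcases hv with hv | hv | ⟨u, hu⟩
  · exact absurd hv (hdeg 5 (by decide) (by decide) (by decide) (by decide))
  · exact absurd hv (hdeg 13 (by decide) (by decide) (by decide) (by decide))
  have ha := col65_mem hu
  obtain ⟨Y, -, hY2, -⟩ := exists_list v'
  have hq : ms chevE8 8 v' = (ms chevE8 8 v').map (fun a => ((2 : ℕ) : ZMod 63) * a) := h2'.symm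
  let f : ZMod 63 →+* ZMod 9 := ZMod.castHom (by norm_num) (ZMod 9)
  have hY9 : vecL 9 Y = fun i => f (v' i) := by
    funext i
    rw [← hY2]
    unfold vecL
    exact (map_natCast f _).symm
  have hb : [cn 9 0 Y + 8, cn 9 1 Y, cn 9 3 Y] ∈ L9 := by
    refine col9_mem Y ?_
    have h1 := inv_map f hq
    rw [hY9]
    exact h1
  -- bounds
  have hle : ∀ b < 64, m b ≤ 248 := by
    intro b hb
    have h1 : m b * w65 b b ≤ cntE v (b : ZMod 65) := by
      rw [h65 b (by omega)]
      exact Finset.single_le_sum (f := fun c => m c * w65 c b) (fun _ _ => Nat.zero_le _) (Finset.mem_range.2 hb)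
    have h2 : cntE v (b : ZMod 65) ≤ 248 := by
      unfold cntE
      have h3 : (ms chevE8 8 v).count (b : ZMod 65) ≤ 240 := by
        rw [← card_ms v]
        exact Multiset.count_le_card _ _
      split_ifs <;> omega
    have h3 := wpos b hb
    nlinarith
  -- order 9
  have h9 : ∀ a < 9, cn 9 a Y + (if a = 0 then 8 else 0) =
      ∑ b ∈ Finset.range 64, m b * ((List.range 7).map fun i => w63 b (a + 9 * i)).sum := by
    intro a ha
    have h1 : ∀ i < 7, cn 63 (a + 9 * i) Y + (if a + 9 * i = 0 then 8 else 0) =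
        ∑ b ∈ Finset.range 64, m b * w63 b (a + 9 * i) := by
      intro i hi
      rw [← cntE_vecL hY2 (by omega), h63 _ (by omega)]
    rw [← cn_fold Y ha]
    have h2 : ((List.range 7).map fun i => cn 63 (a + 9 * i) Y).sum + (if a = 0 then 8 else 0) =
        ((List.range 7).map fun i => cn 63 (a + 9 * i) Y + (if a + 9 * i = 0 then 8 else 0)).sum := by
      rw [List.sum_map_add]
      have h8 : ∀ a < 9, (if a = 0 then 8 else 0) = ((List.range 7).map fun i => if a + 9 * i = 0 then 8 else 0).sum := by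
        decide
      rw [h8 a ha]
    have h3 : ((List.range 7).map fun i => cn 63 (a + 9 * i) Y + (if a + 9 * i = 0 then 8 else 0)) =
        (List.range 7).map fun i => ∑ b ∈ Finset.range 64, m b * w63 b (a + 9 * i) :=
      List.map_congr_left fun i hi => h1 i (List.mem_range.1 hi)
    rw [h2, h3]
    simp only [← List.sum_map_mul_left]
    clear h1 h2 h3
    generalize List.range 7 = L
    induction L with
    | nil => simp
    | cons i L ih => simp only [List.map_cons, List.sum_cons, Finset.sum_add_distrib, ih]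
  have hb' : [cn 9 0 Y + (if 0 = 0 then 8 else 0), cn 9 1 Y + (if 1 = 0 then 8 else 0),
      cn 9 3 Y + (if 3 = 0 then 8 else 0)] ∈ L9 := by
    rw [if_pos rfl, if_neg (by norm_num : ¬ (1 : ℕ) = 0), if_neg (by norm_num : ¬ (3 : ℕ) = 0), add_zero, add_zero]
    exact hb
  obtain ⟨p, hp, hpat⟩ := arith hm ha hb' hle
    (eqs_of (g := fun j => cntE v ((j : ℕ) : ZMod 65)) (h := fun a => cn 9 a Y + if a = 0 then 8 else 0) h65 h9)
  rcases hp with rfl | rfl | rfl | rfl
  · exact ⟨1, by simp, hpat⟩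
  · exact ⟨2, by simp, hpat⟩
  · exact ⟨3, by simp, hpat⟩
  · exfalso
    refine no63 h2' fun j hj => ?_
    have h1 := h63 j hj
    rw [cntE_vecL hY2 hj] at h1
    have h2 : ∑ b ∈ Finset.range 64, m b * w63 b j = ((List.range 64).map fun b => pat 4 b * w63 b j).sum := by
      rw [← sum_range_list]
      exact Finset.sum_congr rfl fun b hb => by rw [hpat b (Finset.mem_range.1 hb)]
    rw [h2, patw j hj] at h1
    rw [← hY2, count_vecL Y hj]
    omega

/-- the statement K1 -/
def K1St : Prop := ∀ (P : (Fin 8 → ZMod 65) → Prop) (_ : ∀ v j, P v → P (srefl chevE8 8 j v)) {v : Fin 8 → ZMod 65}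
    (_ : P v) (_ : (ms chevE8 8 v).map (fun a => 2 * a) = ms chevE8 8 v) (_ : ∃ i, 5 * v i ≠ 0)
    (_ : ∃ i, 13 * v i ≠ 0), ∃ u : (ZMod 65)ˣ, P (fun i => u * Y1 i) ∨ P (fun i => u * Y5 i)

/-- **K3** from K1 -/
theorem K3_of (hK : K1St) {m : ℕ → ℕ} {v : Fin 8 → ZMod 65} {v' : Fin 8 → ZMod 63}
    (h2 : (ms chevE8 8 v).map (fun a => 2 * a) = ms chevE8 8 v)
    (h2' : (ms chevE8 8 v').map (fun a => 2 * a) = ms chevE8 8 v')
    (hm : ∀ b < 63, m (2 * b % 63) = m b)
    (h65 : ∀ j : ℕ, j < 65 → cntE v (j : ZMod 65) = ∑ b ∈ Finset.range 64, m b * w65 b j)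
    (h63 : ∀ j : ℕ, j < 63 → cntE v' (j : ZMod 63) = ∑ b ∈ Finset.range 64, m b * w63 b j) (h0 : m 0 ≠ 248) :
    ∃ p, (p = 1 ∨ p = 2 ∨ p = 3) ∧ ∀ b < 64, m b = pat p b := by
  refine K3core ?_ h2' hm h65 h63 h0
  by_cases h5 : ∃ i, 5 * v i ≠ 0
  · by_cases h13 : ∃ i, 13 * v i ≠ 0
    · right
      right
      obtain ⟨u, hu⟩ := hK (fun w => ms chevE8 8 v = ms chevE8 8 w) (fun w j hw => by
        show ms chevE8 8 v = ms chevE8 8 (srefl chevE8 8 j w)
        rw [ms_srefl e8T]
        exact hw) rfl h2 h5 h13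
      exact ⟨u, hu⟩
    · right
      left
      push Not at h13
      exact h13
  · left
    push Not at h5
    exact h5

end Cfsg.Agent.H259.L64
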