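import Cfsg.Agent.H259.L64.Tab

/-!
# S5915, block K3: a multiset of root values modulo 63 which does not occur
-/

set_option autoImplicit false
set_option maxRecDepth 100000

namespace Cfsg.Agent.H259.L64

open Cfsg Cfsg.Lie
open Cfsg.Agent.ChevalleyStructure Cfsg.Agent.ChevalleyStructure.CoxeterGeomTypes
open Cfsg.Agent.H942.E8Tab Cfsg.Agent.H942.E8Alc Cfsg.Agent.H942.E8Val
open Cfsg.Agent.H944.RootVals Cfsg.Agent.H944.Tab Cfsg.Agent.H944.Kac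

/-! ### the search -/

/-- `f n`, with `n` evaluated first -/
def frc (n : ℕ) (f : ℕ → Bool) : Bool := Nat.rec (f 0) (fun m _ => f (m + 1)) n

theorem frc_eq (n : ℕ) (f : ℕ → Bool) : frc n f = f n := by
  cases n <;> rfl

/-- hexadecimal digit -/
def dg (c s : ℕ) : ℕ := c / 16 ^ s % 16

theorem dg_sub {c s : ℕ} (h : dg c s ≠ 0) (j : ℕ) : dg (c - 16 ^ s) j = dg c j - (if s = j then 1 else 0) := by
  unfold dg at h ⊢
  have h16 : ∀ n, 0 < 16 ^ n := fun n => by positivity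
  obtain ⟨q, d, r, hr, hd, hd0, hc⟩ : ∃ q d r, r < 16 ^ s ∧ d < 16 ∧ d ≠ 0 ∧ c = 16 ^ s * (16 * q + d) + r := by
    refine ⟨c / 16 ^ s / 16, c / 16 ^ s % 16, c % 16 ^ s, Nat.mod_lt _ (h16 s), Nat.mod_lt _ (by norm_num), h, ?_⟩
    rw [Nat.div_add_mod, Nat.div_add_mod]
  have hc' : c - 16 ^ s = 16 ^ s * (16 * q + (d - 1)) + r := by
    obtain ⟨e, rfl⟩ : ∃ e, d = e + 1 := ⟨d - 1, by omega⟩
    rw [hc, Nat.add_sub_cancel, show 16 * q + (e + 1) = (16 * q + e) + 1 by ring, mul_add, mul_one]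
    omega
  rw [hc', hc]
  rcases lt_trichotomy s j with hj | hj | hj
  · obtain ⟨k, rfl⟩ : ∃ k, j = s + (k + 1) := ⟨j - s - 1, by omega⟩
    rw [if_neg (by omega), Nat.sub_zero, pow_add, ← Nat.div_div_eq_div_mul, ← Nat.div_div_eq_div_mul,
      Nat.mul_add_div (h16 s), Nat.mul_add_div (h16 s), Nat.div_eq_of_lt hr, add_zero, add_zero, pow_succ',
      ← Nat.div_div_eq_div_mul, ← Nat.div_div_eq_div_mul, Nat.mul_add_div (by norm_num), Nat.mul_add_div (by norm_num),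
      Nat.div_eq_of_lt hd, Nat.div_eq_of_lt (show d - 1 < 16 by omega)]
  · subst hj
    rw [if_pos rfl, Nat.mul_add_div (h16 s), Nat.mul_add_div (h16 s), Nat.div_eq_of_lt hr, add_zero, add_zero,
      Nat.mul_add_mod, Nat.mul_add_mod, Nat.mod_eq_of_lt hd, Nat.mod_eq_of_lt (by omega)]
  · obtain ⟨k, rfl⟩ : ∃ k, s = j + (k + 1) := ⟨s - j - 1, by omega⟩
    rw [if_neg (by omega), Nat.sub_zero]
    have h1 : ∀ m, (16 ^ (j + (k + 1)) * m + r) / 16 ^ j % 16 = r / 16 ^ j % 16 := by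
      intro m
      rw [show 16 ^ (j + (k + 1)) * m = 16 ^ j * (16 * (16 ^ k * m)) by rw [pow_add, pow_succ]; ring,
        Nat.mul_add_div (h16 j), Nat.mul_add_mod]
    rw [h1, h1]

/-- subtract the values of the roots of one level from the capacities -/
def stp : List (List ℕ) → List ℕ → ℕ → (ℕ → Bool) → Bool
  | [], _, cap, k => k cap
  | r :: rs, a, cap, k =>
    frc (dotN r a % 63) fun s => bif Nat.beq (dg cap s) 0 then false else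
      frc (cap - 16 ^ s) fun cap1 => frc ((63 - s) % 63) fun s' => bif Nat.beq (dg cap1 s') 0 then false else
        frc (cap1 - 16 ^ s') fun cap2 => stp rs a cap2 k

/-- the tree search -/
def srch : List (ℕ × List (List ℕ)) → List ℕ → ℕ → Bool
  | [], _, _ => true
  | (b, rs) :: L, a, cap => (List.range 7).any fun c => frc (b + 9 * c) fun x => stp rs (x :: a) cap fun cap' =>
      srch L (x :: a) cap'

/-- the values of the roots of a list -/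
def vals (rs : List (List ℕ)) (a : List ℕ) : List ℕ :=
  rs.flatMap fun r => [dotN r a % 63, (63 - dotN r a % 63) % 63]

theorem stp_spec (a rest : List ℕ) (k : ℕ → Bool) (hk : ∀ cap, (∀ j, rest.count j ≤ dg cap j) → k cap = true) :
    ∀ (rs : List (List ℕ)) (cap : ℕ), (∀ j, (vals rs a ++ rest).count j ≤ dg cap j) → stp rs a cap k = true := by
  intro rs
  induction rs with
  | nil =>
    intro cap h
    exact hk cap h
  | cons r rs ih =>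
    intro cap h
    have hv : vals (r :: rs) a = (dotN r a % 63) :: ((63 - dotN r a % 63) % 63) :: vals rs a := rfl
    rw [hv] at h
    simp only [stp, frc_eq]
    generalize dotN r a % 63 = s at h ⊢
    generalize (63 - s) % 63 = s' at h ⊢
    have h1 : dg cap s ≠ 0 := by
      have := h s
      rw [List.cons_append, List.count_cons_self] at this
      omega
    have h2 : ∀ j, (s' :: (vals rs a ++ rest)).count j ≤ dg (cap - 16 ^ s) j := by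
      intro j
      have := h j
      rw [List.cons_append, List.count_cons, List.cons_append] at this
      rw [dg_sub h1 j]
      by_cases hj : s = j
      · subst hj
        simp only [beq_self_eq_true, if_true] at this ⊢
        omega
      · rw [if_neg (by simpa using hj)] at this
        rw [if_neg hj]
        omega
    have h3 : dg (cap - 16 ^ s) s' ≠ 0 := by
      have := h2 s'
      rw [List.count_cons_self] at this
      omega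
    have h4 : ∀ j, (vals rs a ++ rest).count j ≤ dg (cap - 16 ^ s - 16 ^ s') j := by
      intro j
      have := h2 j
      rw [List.count_cons] at this
      rw [dg_sub h3 j]
      by_cases hj : s' = j
      · subst hj
        simp only [beq_self_eq_true, if_true] at this ⊢
        omega
      · rw [if_neg (by simpa using hj)] at this
        rw [if_neg hj]
        omega
    rw [nbeq_false h1, cond_false, nbeq_false h3, cond_false]
    exact ih _ h4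

/-- all the values, for the choices `cs` -/
def tot : List (ℕ × List (List ℕ)) → List ℕ → List ℕ → List ℕ
  | (b, rs) :: L, c :: cs, a => vals rs ((b + 9 * c) :: a) ++ tot L cs ((b + 9 * c) :: a)
  | _, _, _ => []

theorem srch_spec : ∀ (L : List (ℕ × List (List ℕ))) (cs a : List ℕ) (cap : ℕ), cs.length = L.length →
    (∀ c ∈ cs, c < 7) → (∀ j, (tot L cs a).count j ≤ dg cap j) → srch L a cap = true := by
  intro L
  induction L with
  | nil => intro cs a cap _ _ _; rfl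
  | cons p L ih =>
    obtain ⟨b, rs⟩ := p
    intro cs a cap hl hc h
    cases cs with
    | nil => simp at hl
    | cons c cs =>
      rw [srch, List.any_eq_true]
      refine ⟨c, List.mem_range.2 (hc c (List.mem_cons_self)), ?_⟩
      rw [frc_eq]
      refine stp_spec _ (tot L cs ((b + 9 * c) :: a)) _ (fun cap' hcap => ?_) rs cap h
      exact ih cs _ cap' (by simpa using hl) (fun d hd => hc d (List.mem_cons_of_mem _ hd)) hcap

/-! ### the table -/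

def rs1 : List (List ℕ) :=
    [[1]]

def rs2 : List (List ℕ) :=
    [[1, 0], [1, 1]]

def rs3 : List (List ℕ) :=
    [[1, 0, 0], [1, 1, 0], [1, 1, 1]]

def rs4 : List (List ℕ) :=
    [[1, 0, 0, 0], [1, 1, 0, 0], [1, 1, 1, 0], [1, 1, 1, 1]]

def rs5 : List (List ℕ) :=
    [[1, 0, 0, 0, 0]]

def rs6 : List (List ℕ) :=
    [[1, 0, 0, 0, 0, 0], [1, 1, 0, 0, 0, 0], [1, 0, 1, 0, 0, 0], [1, 1, 1, 0, 0, 0], [1, 0, 1, 1, 0, 0], [1, 1, 1,
    1, 0, 0], [1, 0, 1, 1, 1, 0], [1, 1, 1, 1, 1, 0], [1, 0, 1, 1, 1, 1], [1, 1, 1, 1, 1, 1]]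

def rs7 : List (List ℕ) :=
    [[1, 0, 0, 0, 0, 0, 0], [1, 0, 0, 0, 0, 1, 0], [1, 0, 0, 0, 1, 1, 0], [1, 0, 0, 1, 1, 1, 0], [1, 1, 0, 1, 1,
    1, 0], [1, 1, 1, 1, 1, 1, 0], [1, 0, 0, 0, 0, 1, 1], [1, 0, 0, 0, 1, 1, 1], [1, 0, 0, 1, 1, 1, 1], [1, 1, 0,
    1, 1, 1, 1], [1, 1, 1, 1, 1, 1, 1], [1, 0, 0, 0, 1, 2, 1], [1, 0, 0, 1, 1, 2, 1], [1, 1, 0, 1, 1, 2, 1], [1,
    1, 1, 1, 1, 2, 1], [1, 0, 0, 1, 2, 2, 1], [1, 1, 0, 1, 2, 2, 1], [1, 1, 1, 1, 2, 2, 1], [1, 1, 0, 2, 2, 2, 1],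
    [1, 1, 1, 2, 2, 2, 1], [1, 2, 1, 2, 2, 2, 1]]

def rs8 : List (List ℕ) :=
    [[1, 0, 0, 0, 0, 0, 0, 0], [1, 0, 0, 0, 0, 0, 0, 1], [1, 0, 0, 0, 0, 0, 1, 1], [1, 0, 0, 0, 0, 1, 1, 1], [1,
    0, 0, 0, 1, 1, 1, 1], [1, 0, 1, 0, 1, 1, 1, 1], [1, 0, 1, 1, 1, 1, 1, 1], [1, 1, 0, 0, 0, 0, 1, 1], [1, 1, 0,
    0, 0, 1, 1, 1], [1, 1, 0, 0, 1, 1, 1, 1], [1, 1, 1, 0, 1, 1, 1, 1], [1, 1, 1, 1, 1, 1, 1, 1], [1, 1, 0, 0, 0,
    1, 2, 1], [1, 1, 0, 0, 1, 1, 2, 1], [1, 1, 1, 0, 1, 1, 2, 1], [1, 1, 1, 1, 1, 1, 2, 1], [1, 1, 0, 0, 1, 2, 2,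
    1], [1, 1, 1, 0, 1, 2, 2, 1], [1, 1, 1, 1, 1, 2, 2, 1], [1, 1, 1, 0, 2, 2, 2, 1], [1, 1, 1, 1, 2, 2, 2, 1],
    [1, 1, 2, 1, 2, 2, 2, 1], [1, 1, 0, 0, 0, 1, 2, 2], [1, 1, 0, 0, 1, 1, 2, 2], [1, 1, 1, 0, 1, 1, 2, 2], [1, 1,
    1, 1, 1, 1, 2, 2], [1, 1, 0, 0, 1, 2, 2, 2], [1, 1, 1, 0, 1, 2, 2, 2], [1, 1, 1, 1, 1, 2, 2, 2], [1, 1, 1, 0,
    2, 2, 2, 2], [1, 1, 1, 1, 2, 2, 2, 2], [1, 1, 2, 1, 2, 2, 2, 2], [1, 1, 0, 0, 1, 2, 3, 2], [1, 1, 1, 0, 1, 2,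
    3, 2], [1, 1, 1, 1, 1, 2, 3, 2], [1, 1, 1, 0, 2, 2, 3, 2], [1, 1, 1, 1, 2, 2, 3, 2], [1, 1, 2, 1, 2, 2, 3, 2],
    [1, 1, 1, 0, 2, 3, 3, 2], [1, 1, 1, 1, 2, 3, 3, 2], [1, 1, 2, 1, 2, 3, 3, 2], [1, 1, 2, 1, 3, 3, 3, 2], [1, 2,
    0, 0, 1, 2, 3, 2], [1, 2, 1, 0, 1, 2, 3, 2], [1, 2, 1, 1, 1, 2, 3, 2], [1, 2, 1, 0, 2, 2, 3, 2], [1, 2, 1, 1,
    2, 2, 3, 2], [1, 2, 2, 1, 2, 2, 3, 2], [1, 2, 1, 0, 2, 3, 3, 2], [1, 2, 1, 1, 2, 3, 3, 2], [1, 2, 2, 1, 2, 3,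
    3, 2], [1, 2, 2, 1, 3, 3, 3, 2], [1, 2, 1, 0, 2, 3, 4, 2], [1, 2, 1, 1, 2, 3, 4, 2], [1, 2, 2, 1, 2, 3, 4, 2],
    [1, 2, 2, 1, 3, 3, 4, 2], [1, 2, 2, 1, 3, 4, 4, 2], [1, 2, 1, 0, 2, 3, 4, 3], [1, 2, 1, 1, 2, 3, 4, 3], [1, 2,
    2, 1, 2, 3, 4, 3], [1, 2, 2, 1, 3, 3, 4, 3], [1, 2, 2, 1, 3, 4, 4, 3], [1, 2, 2, 1, 3, 4, 5, 3], [1, 3, 2, 1,
    3, 4, 5, 3], [2, 2, 1, 0, 2, 3, 4, 3], [2, 2, 1, 1, 2, 3, 4, 3], [2, 2, 2, 1, 2, 3, 4, 3], [2, 2, 2, 1, 3, 3,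
    4, 3], [2, 2, 2, 1, 3, 4, 4, 3], [2, 2, 2, 1, 3, 4, 5, 3], [2, 2, 2, 1, 3, 4, 5, 4], [2, 3, 2, 1, 3, 4, 5, 3],
    [2, 3, 2, 1, 3, 4, 5, 4], [2, 3, 2, 1, 3, 4, 6, 4], [2, 3, 2, 1, 3, 5, 6, 4], [2, 3, 2, 1, 4, 5, 6, 4], [2, 3,
    3, 1, 4, 5, 6, 4], [2, 3, 3, 2, 4, 5, 6, 4]]

def lv : List (ℕ × List (List ℕ)) :=
  [(0, rs1), (0, rs2), (0, rs3), (0, rs4), (0, rs5), (1, rs6), (1, rs7), (1, rs8)]

/-- the capacities -/
def cap63 : ℕ := 3371939718875053650768756101083130245424723860180309122337449246811573667700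

theorem srch_false : srch lv [] cap63 = false := by decide +kernel

/-- the order of the coordinates (the last is chosen first) -/
def ps : List ℕ := [0, 1, 6, 7, 5, 4, 3, 2]

/-- the level of a root -/
def lev (r : List ℕ) : ℕ := ((ps.map fun i => r.getD i 0).dropWhile fun x => x == 0).length

def Rk (k : ℕ) : List (List ℕ) := R8.filter fun r => lev r == k

/-- the trimmed root -/
def tr (k : ℕ) (r : List ℕ) : List ℕ := (ps.drop (8 - k)).map fun i => r.getD i 0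

theorem rs_eq : [rs1, rs2, rs3, rs4, rs5, rs6, rs7, rs8] = [1, 2, 3, 4, 5, 6, 7, 8].map fun k => (Rk k).map (tr k) := by
  decide +kernel

theorem perm_Rk : (Rk 1 ++ (Rk 2 ++ (Rk 3 ++ (Rk 4 ++ (Rk 5 ++ (Rk 6 ++ (Rk 7 ++ (Rk 8 ++ [])))))))).Perm R8 := by
  decide +kernel

theorem zero_Rk : ∀ k < 9, ∀ r ∈ Rk k, ∀ i ∈ ps.take (8 - k), r.getD i 0 = 0 := by
  decide +kernel

end Cfsg.Agent.H259.L64
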